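import Mathlib
import Cfsg.Agent.Lib.Pres.SU3Mat

/-!
# A presentation of `SU₃(q)` with 3 generators and 21 relators
-/

set_option autoImplicit false

namespace CfsgLib.Pres.SU3

open CfsgLib.Unitary CfsgLib.LS SemidirectProduct Cfsg

variable {F : Type*} [Field F] {q : ℕ} [Fintype F] [hF : Fact (Fintype.card F = q ^ 2)]
  {Γ : Type*} [Group Γ] (σ : Bor F q →* Γ) (τ : Γ)

/-- `τ u τ` lies in the big cell. -/
def Good (u : UT F q) : Prop := ∃ b b', τ * σ (inl u) * τ = σ b * τ * σ b'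

/-- All root elements with the given corner entry are good. -/
def GoodY (y : F) : Prop := ∀ u : UT F q, u.Y = y → Good σ τ u

variable {σ τ}

theorem inr_comm {ζ : Fˣ} (hζ : ∀ x : Fˣ, ∃ n : ℕ, ζ ^ n = x) (h1 : τ * τ = 1)
    (h2 : τ * σ (inr ζ) * τ * σ (inr (ζ ^ q)) = 1) (x : Fˣ) :
    τ * σ (inr x) = σ (inr (x ^ q)⁻¹) * τ := by
  obtain ⟨n, rfl⟩ := hζ x
  have h3 : τ * σ (inr ζ) * τ⁻¹ = σ (inr (ζ ^ q)⁻¹) := by
    rw [inv_eq_of_mul_eq_one_right h1, map_inv, map_inv]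
    exact eq_inv_of_mul_eq_one_left h2
  rw [← mul_inv_eq_iff_eq_mul, map_pow, map_pow, ← conj_pow, h3, ← map_pow, ← map_pow, inv_pow,
    pow_right_comm]

variable (hH : ∀ x : Fˣ, τ * σ (inr x) = σ (inr (x ^ q)⁻¹) * τ)
include hH

theorem inr_comm' (x : Fˣ) : σ (inr x) * τ = τ * σ (inr (x ^ q)⁻¹) := by
  rw [hH, inv_pow, inv_inv, show (x ^ q) ^ q = x from Units.ext (by
    simpa using pow_q_pow_q hF.out (x : F))]

theorem Good.diag {u : UT F q} (h : Good σ τ u) (x : Fˣ) : Good σ τ (UT.diag (chi q x) u) := by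
  obtain ⟨b, b', h⟩ := h
  refine ⟨inr (x ^ q)⁻¹ * b, b' * inr (x⁻¹ ^ q)⁻¹, ?_⟩
  rw [← conj_inl, ← map_inv, map_mul, map_mul, map_mul, map_mul]
  calc _ = τ * σ (inr x) * σ (inl u) * (σ (inr x⁻¹) * τ) := by simp only [mul_assoc]
    _ = σ (inr (x ^ q)⁻¹) * (τ * σ (inl u) * τ) * σ (inr (x⁻¹ ^ q)⁻¹) := by
      rw [hH, inr_comm' hH x⁻¹]; simp only [mul_assoc]
    _ = _ := by rw [h]; simp only [mul_assoc]

theorem GoodY.mul {y κ : F} (h : GoodY σ τ y) (hκ : κ ^ q = κ) (h0 : κ ≠ 0) : GoodY σ τ (κ * y) := by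
  intro u hu
  obtain ⟨x, rfl⟩ := exists_norm_eq hF.out hκ
  have hx : x ≠ 0 := fun h => h0 (by simp [h])
  have := (h (UT.diag (chi q (Units.mk0 x hx))⁻¹ u) (by
    rw [← map_inv, UT.diag_Y, chi_norm, hu]; simp [h0])).diag hH (Units.mk0 x hx)
  rwa [← MulAut.mul_apply, ← UT.diagHom_apply, ← UT.diagHom_apply, ← map_mul, mul_inv_cancel,
    map_one, MulAut.one_apply] at this

variable {π : Γ →* GJ F q} (hσ : ∀ b, π (σ b) = phi b) (hτ : π τ = tt)
include hσ hτ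

theorem Good.right {u : UT F q} (h : Good σ τ u) : ∃ b v, τ * σ (inl u) * τ = σ b * τ * σ (inl v) ∧
    u.Y * v.Y = 1 ∧ u.Y * v.X = -u.X := by
  obtain ⟨b, b', h⟩ := h
  have e : τ * σ (inl u) * τ = σ (b * inr (b'.right ^ q)⁻¹) * τ *
      σ (inl (UT.diag (chi q b'.right⁻¹) b'.left)) := by
    rw [h, map_mul, mul_assoc (σ b) _ τ, ← hH, ← conj_inl]
    conv_lhs => rw [← inl_left_mul_inr_right b']
    simp [mul_assoc]
  exact ⟨_, _, e, right_form (by simpa only [map_mul π, hσ, hτ] using congrArg π e)⟩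

theorem Good.left {u : UT F q} (h : Good σ τ u) : ∃ v b, τ * σ (inl u) * τ = σ (inl v) * τ * σ b ∧
    u.Y * v.Y = 1 := by
  obtain ⟨b, b', h⟩ := h
  have e : τ * σ (inl u) * τ = σ (inl b.left) * τ * σ (inr (b.right ^ q)⁻¹ * b') := by
    rw [h, map_mul, ← mul_assoc, mul_assoc _ τ (σ (inr _)), ← inr_comm' hH, ← mul_assoc, ← map_mul,
      inl_left_mul_inr_right]
  exact ⟨_, _, e, left_form (by simpa only [map_mul π, hσ, hτ] using congrArg π e)⟩

theorem GoodY.tetra (h1 : τ * τ = 1) {s a : F} (hs : s ^ q = -s) (hs0 : s ≠ 0) (ha0 : a ≠ 0)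
    (h0 : GoodY σ τ s) (ha : GoodY σ τ a) (hb : GoodY σ τ ((s + a) / (s * a))) :
    GoodY σ τ (s + a) := by
  intro u hu
  obtain ⟨b, v, e, h2, h3⟩ := (h0 (cz s hs) rfl).right hH hσ hτ
  obtain ⟨v', b', e', h4⟩ := (ha ((cz s hs)⁻¹ * u) (by simp [cz, hu, hs])).left hH hσ hτ
  simp only [cz, neg_zero, mul_eq_zero, hs0, false_or, UT.mul_Y, UT.inv_Y, UT.inv_X, hu, hs,
    zero_mul, add_zero, neg_add_cancel_left] at h2 h3 h4
  obtain ⟨c, c', e''⟩ := hb (v * v') (by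
    rw [UT.mul_Y, h3, eq_div_iff (mul_ne_zero hs0 ha0)]
    linear_combination a * h2 + s * h4)
  refine ⟨b * c, c' * b', ?_⟩
  calc _ = τ * σ (inl (cz s hs)) * τ * (τ * σ (inl ((cz s hs)⁻¹ * u)) * τ) := by
        simp only [mul_assoc]
        rw [← mul_assoc τ τ, h1]
        simp [mul_assoc]
    _ = σ b * (τ * σ (inl (v * v')) * τ) * σ b' := by rw [e, e']; simp only [map_mul, mul_assoc]
    _ = _ := by rw [e'']; simp only [map_mul, mul_assoc]

theorem good_all (h1 : τ * τ = 1) {s : F} (hs : s ^ q = -s) (hs0 : s ≠ 0) (h0 : GoodY σ τ s)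
    {ζ : Fˣ} (hζ : ∀ x : Fˣ, ∃ n : ℕ, ζ ^ n = x) (h2 : GoodY σ τ (s * ζ)) {u : UT F q}
    (hu : u ≠ 1) : Good σ τ u := by
  have key : ∀ c c' : F, c ≠ 0 → c' ≠ 0 → GoodY σ τ (s * c) → GoodY σ τ (s * c') →
      GoodY σ τ (s * (c * c')) := fun c c' hc hc' h h' => by
    by_cases hcq : c ^ q = c
    · simpa only [mul_left_comm] using h'.mul hH hcq hc
    obtain ⟨κ, κ', e⟩ := exists_decomp hcq (c * c')
    have hk : (κ : F) ^ q = κ := κ.2
    have hk' : (κ' : F) ^ q = κ' := κ'.2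
    have hcc := mul_ne_zero hc hc'
    by_cases z : (κ : F) = 0
    · rw [z, zero_add] at e
      rw [e, mul_left_comm]
      exact h.mul hH hk' (left_ne_zero_of_mul (e ▸ hcc))
    by_cases z' : (κ' : F) = 0
    · rw [z', zero_mul, add_zero] at e
      rw [e, mul_comm]
      exact h0.mul hH hk z
    have e' : s * (c * c') = κ * s + κ' * (s * c) := by rw [e]; ring
    rw [e']
    refine GoodY.tetra hH hσ hτ h1 (by rw [mul_pow, hk, hs, mul_neg]) (mul_ne_zero z hs0)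
      (mul_ne_zero z' (mul_ne_zero hs0 hc)) (h0.mul hH hk z) (h.mul hH hk' z') ?_
    have := h'.mul hH (κ := (κ * κ' * (s * s))⁻¹) (by simp only [inv_pow, mul_pow, hk, hk', hs]; ring)
      (by simp [z, z', hs0])
    convert this using 1
    rw [← e']
    field_simp
  have hall : ∀ n : ℕ, GoodY σ τ (s * ζ ^ n) := fun n => by
    induction n with
    | zero => simpa using h0
    | succ n ih => exact pow_succ (ζ : F) n ▸ key _ _ (pow_ne_zero _ ζ.ne_zero) ζ.ne_zero ih h2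
  have hY : u.Y ≠ 0 := fun h => hu (UT.eq_one_of_Y h)
  obtain ⟨n, hn⟩ := hζ (Units.mk0 (u.Y / s) (div_ne_zero hY hs0))
  refine hall n u ?_
  rw [show (ζ : F) ^ n = u.Y / s from congrArg Units.val hn, mul_div_cancel₀ _ hs0]

theorem injective_of_good (h1 : τ * τ = 1) (hg : ∀ u : UT F q, u ≠ 1 → Good σ τ u)
    (hgen : Subgroup.closure (Set.range σ ∪ {τ}) = ⊤) : Function.Injective π := by
  have hτ' : ∀ γ, ((∃ b, γ = σ b) ∨ ∃ b b', γ = σ b * τ * σ b') →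
      (∃ b, τ * γ = σ b) ∨ ∃ b b', τ * γ = σ b * τ * σ b' := by
    rintro _ (⟨b, rfl⟩ | ⟨b, b', rfl⟩)
    · exact Or.inr ⟨1, b, by simp⟩
    have e : τ * (σ b * τ * σ b') = τ * σ (inl b.left) * τ * σ (inr (b.right ^ q)⁻¹ * b') := by
      conv_lhs => rw [← inl_left_mul_inr_right b, map_mul, mul_assoc _ _ τ, inr_comm' hH]
      simp only [map_mul, mul_assoc]
    rw [e]
    by_cases hb : b.left = 1
    · exact Or.inl ⟨inr (b.right ^ q)⁻¹ * b', by rw [hb, map_one, map_one, mul_one, h1, one_mul]⟩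
    · obtain ⟨c, c', e'⟩ := hg _ hb
      exact Or.inr ⟨c, c' * _, by rw [e', mul_assoc, ← map_mul]⟩
  have hσ' : ∀ c γ, ((∃ b, γ = σ b) ∨ ∃ b b', γ = σ b * τ * σ b') →
      (∃ b, σ c * γ = σ b) ∨ ∃ b b', σ c * γ = σ b * τ * σ b' := by
    rintro c _ (⟨b, rfl⟩ | ⟨b, b', rfl⟩)
    · exact Or.inl ⟨c * b, by simp⟩
    · exact Or.inr ⟨c * b, b', by simp [mul_assoc]⟩
  refine (injective_iff_map_eq_one _).2 fun γ hγ => ?_
  have : (∃ b, γ = σ b) ∨ ∃ b b', γ = σ b * τ * σ b' := by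
    clear hγ
    have hγ : γ ∈ Subgroup.closure (Set.range σ ∪ {τ}) := hgen ▸ Subgroup.mem_top γ
    induction hγ using Subgroup.closure_induction_left with
    | one => exact Or.inl ⟨1, by simp⟩
    | mul_left x hx y _ ih =>
      rcases hx with ⟨c, rfl⟩ | rfl
      exacts [hσ' c y ih, hτ' y ih]
    | inv_mul_cancel x hx y _ ih =>
      rcases hx with ⟨c, rfl⟩ | rfl
      · exact map_inv σ c ▸ hσ' _ y ih
      · exact (inv_eq_of_mul_eq_one_right h1).symm ▸ hτ' y ih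
  rcases this with ⟨b, rfl⟩ | ⟨b, b', rfl⟩
  · rw [hσ, ← map_one phi] at hγ
    rw [phi_injective hγ, map_one]
  · simp only [map_mul, hσ, hτ] at hγ
    refine (phi_ne_tt (b⁻¹ * b'⁻¹) ?_).elim
    rw [map_mul, map_inv, map_inv, inv_mul_eq_iff_eq_mul]
    exact (eq_inv_of_mul_eq_one_left hγ).symm

omit hH hσ hτ

/-- The relator expressing `τ v τ` in Bruhat normal form. -/
def rel (b : UT F q → Bor F q × Bor F q) (v : UT F q) : Word (Bor F q) (Fin 1) :=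
  wg 0 * wm (inl v) * wg 0 * (wm (b v).1 * wg 0 * wm (b v).2)⁻¹

theorem hev (b : UT F q → Bor F q × Bor F q) (u : UT F q) (v : Fin 1 → Γ) :
    ev σ v (rel b u) = 1 ↔ v 0 * σ (inl u) * v 0 = σ (b u).1 * v 0 * σ (b u).2 := by
  simp only [rel, map_mul, map_inv, ev_wm, ev_wg, mul_inv_eq_one]

theorem pres_GJ (h2 : q ≠ 2) (h3 : q ≠ 3) : Pres (GJ F q) 3 21 := by
  obtain ⟨ζ, hζ, hord⟩ := exists_gen (F := F) (q := q)
  obtain ⟨s, hs0, hs⟩ := exists_trace_zero hF.out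
  replace hs : s ^ q = -s := eq_neg_of_add_eq_zero_right hs
  obtain ⟨x, hx⟩ := exists_norm_eq hF.out (trace_pow_q hF.out (s * ζ))
  let u : UT F q := ⟨x, s * ζ, by rw [← hx, pow_succ']⟩
  let ε : Fˣ := ζ ^ q * ζ⁻¹
  have hε : ∀ j : ℕ, ((ε ^ j : Fˣ) : F) * (ε ^ j : Fˣ) ^ q = 1 := fun j => by
    rw [Units.val_pow_eq_pow_val, pow_right_comm, ← mul_pow]
    simp [ε, mul_pow _ _ q, pow_q_pow_q hF.out, mul_assoc]
  have hu : ∀ j : ℕ, (UT.diag (ε ^ j) u).Y = s * ζ := fun j => by rw [UT.diag_Y, hε, one_mul]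
  choose! b hb using fun v : UT F q => exists_rel (u := v)
  have hsζ : s * ζ ≠ 0 := mul_ne_zero hs0 ζ.ne_zero
  refine (pres_bor h2 h3).ext (e := 1) phi (fun _ => tt) [wg 0 * wg 0,
    wg 0 * wm (inr ζ) * wg 0 * wm (inr (ζ ^ q)), rel b (cz s hs), rel b (UT.diag (ε ^ 0) u),
    rel b (UT.diag (ε ^ 1) u), rel b (UT.diag (ε ^ 2) u)] ?_ ?_ ?_
  · refine eq_top_iff.2 fun g _ => ?_
    have hb : ∀ b, phi b ∈ Subgroup.closure (Set.range (phi : Bor F q → GJ F q) ∪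
      Set.range fun _ : Fin 1 => tt) := fun b => Subgroup.subset_closure (Or.inl ⟨b, rfl⟩)
    by_cases h : smat g 2 0 = 0
    · obtain ⟨b, rfl⟩ := mem_range_phi h
      exact hb b
    · obtain ⟨b, b', rfl⟩ := bruhat g h
      exact mul_mem (mul_mem (hb b) (Subgroup.subset_closure (Or.inr ⟨0, rfl⟩))) (hb b')
  · simp only [List.mem_cons, List.not_mem_nil, or_false, forall_eq_or_imp, forall_eq, hev,
      map_mul, ev_wm, ev_wg]
    exact ⟨tt_mul_tt, tt_inr ζ, hb _ hs0, hb _ (hu 0 ▸ hsζ), hb _ (hu 1 ▸ hsζ), hb _ (hu 2 ▸ hsζ)⟩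
  · intro Γ _ σ v π hσ hτ hgen hR
    simp only [List.mem_cons, List.not_mem_nil, or_false, forall_eq_or_imp, forall_eq, hev,
      map_mul, ev_wm, ev_wg] at hR
    obtain ⟨h1, h4, h5, h6⟩ := hR
    have hH := inr_comm hζ h1 h4
    have h7 : ∀ j < 3, Good σ (v 0) (UT.diag (ε ^ j) u) := fun j hj => by
      interval_cases j
      exacts [⟨_, _, h6.1⟩, ⟨_, _, h6.2.1⟩, ⟨_, _, h6.2.2⟩]
    refine injective_of_good hH hσ (hτ 0) h1 (fun w hw => good_all hH hσ (hτ 0) h1 hs hs0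
      (fun w hw => ?_) hζ (fun w hw => ?_) hw) (by rw [← hgen, Set.range_unique (f := v)]; rfl)
    · have := w.tr
      rw [hw, hs, add_neg_cancel, ← pow_succ', eq_comm, pow_eq_zero_iff (by omega)] at this
      exact (UT.ext this.symm hw.symm : cz s hs = w) ▸ ⟨_, _, h5⟩
    · have hw' : w.X ^ (q + 1) = x ^ (q + 1) := by rw [hx, ← hw, w.tr, pow_succ']
      obtain ⟨n, hn⟩ : ∃ n : ℕ, w.X = (ε ^ n : Fˣ) * x := by
        by_cases hx0 : x = 0
        · exact ⟨0, by simpa [hx0] using hw'⟩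
        have hw0 : w.X ≠ 0 := fun h => hx0 (by simpa [h] using hw'.symm)
        obtain ⟨m, hm⟩ := hζ (Units.mk0 (w.X / x) (div_ne_zero hw0 hx0))
        have hq := two_le_q hF.out
        have h8 := orderOf_dvd_of_pow_eq_one (show ζ ^ (m * (q + 1)) = 1 from Units.ext (by
          simp [pow_mul, hm, div_pow, hw', hx0]))
        rw [orderOf_eq_card_of_forall_mem_powers hζ, Nat.card_units, Nat.card_eq_fintype_card,
          hF.out, sq_sub_one_eq q (by omega), mul_comm] at h8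
        obtain ⟨n, rfl⟩ := Nat.dvd_of_mul_dvd_mul_right (by omega) h8
        refine ⟨n, ?_⟩
        rw [show ε = ζ ^ (q - 1) from by
          rw [mul_inv_eq_iff_eq_mul, ← pow_succ, Nat.sub_add_cancel (by omega)], ← pow_mul, hm]
        simp [hx0]
      have e : chi q (ε ^ (n / 3)) = (ε ^ (n / 3)) ^ 3 := Units.ext (by
        rw [coe_chi, div_eq_iff (pow_ne_zero _ (Units.ne_zero _)), Units.val_pow_eq_pow_val _ 3]
        linear_combination (-((ε ^ (n / 3) : Fˣ) : F) ^ 2) * hε (n / 3))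
      have := (h7 (n % 3) (Nat.mod_lt _ (by norm_num))).diag hH (ε ^ (n / 3))
      rw [e, ← MulAut.mul_apply, ← UT.diagHom_apply, ← UT.diagHom_apply, ← map_mul, ← pow_mul,
        ← pow_add, Nat.div_add_mod', UT.diagHom_apply] at this
      exact (UT.ext hn.symm ((hu n).trans hw.symm) : UT.diag (ε ^ n) u = w) ▸ this

theorem pres_SU (h2 : q ≠ 2) (h3 : q ≠ 3) : Pres (SU 3 F q) 3 21 :=
  (pres_GJ h2 h3).congr exists_equiv_SU.some

theorem pres_PSU (h2 : q ≠ 2) (h3 : q ≠ 3) : Pres (PSU 3 F q) 3 22 := by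
  have : Fact (Nat.Prime 3) := ⟨Nat.prime_three⟩
  have : IsCyclic (Subgroup.center (SU 3 F q)) := isCyclic_of_card_dvd_prime (p := 3) (by
    rw [card_center_SU hF.out (by norm_num)]; exact Nat.gcd_dvd_left _ _)
  exact (pres_SU h2 h3).quot_cyclic _

end CfsgLib.Pres.SU3
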